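import Mathlib

/-!
# S2187, TRI-3: commuting endomorphisms of order three of a three dimensional space (helper314)

* `exists_frame` : two commuting endomorphisms `a`, `b` of order three generating a group of order nine with a common fixed
  vector `v1`: some words `x`, `y` in `a`, `b` are `diag(1, 1, ω)`, `diag(1, ω', 1)`;
* `exists_line` : `e ^ 3 = 1`, `e ≠ 1`, `e` with a fixed vector: a line invariant under the commutant of `e`;
* `exists_fix` : `e ^ 3 = 1`, `e` not scalar: a scalar multiple has a fixed vector.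
-/

set_option autoImplicit false
set_option linter.unusedSectionVars false

namespace Cfsg.Agent.H314.G3

variable {F V : Type*} [Field F] [AddCommGroup V] [Module F V]

section fixed

variable {x : Module.End F V}

theorem cube_apply (h : x ^ 3 = 1) (v : V) : x (x (x v)) = v := by
  have := congrArg (fun f : Module.End F V => f v) h
  simpa [pow_succ, Module.End.mul_apply] using this

/-- `v + x v + x² v` is fixed -/
theorem sum_fix (h : x ^ 3 = 1) (v : V) : x (v + x v + x (x v)) = v + x v + x (x v) := by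
  rw [map_add, map_add, cube_apply h]
  abel

theorem three_smul_eq (v : V) : (3 : F) • v = v + v + v := by
  have : (3 : F) = 1 + 1 + 1 := by norm_num
  rw [this, add_smul, add_smul, one_smul]

theorem eq_zero_of_three (h3 : (3 : F) ≠ 0) {v : V} (h : v + v + v = 0) : v = 0 := by
  rw [← three_smul_eq (F := F)] at h
  exact (smul_eq_zero.1 h).resolve_left h3

/-- the fixed points and the kernel of `1 + x + x²` meet trivially -/
theorem meet (h3 : (3 : F) ≠ 0) {v : V} (h1 : x v = v) (h2 : v + x v + x (x v) = 0) : v = 0 := by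
  rw [h1, h1] at h2
  exact eq_zero_of_three h3 h2

/-- `2 w - x w - x² w` -/
theorem ker_sum (h : x ^ 3 = 1) (w : V) : (w + w - x w - x (x w)) + x (w + w - x w - x (x w)) +
    x (x (w + w - x w - x (x w))) = 0 := by
  simp only [map_sub, map_add, cube_apply h]
  abel

theorem ker_ne (h3 : (3 : F) ≠ 0) (h : x ^ 3 = 1) {w : V} (hw : x w ≠ w) : w + w - x w - x (x w) ≠ 0 := by
  intro h0
  apply hw
  have h1 : w + w + w = w + x w + x (x w) := by
    have h4 : w + w - x w - x (x w) = (w + w + w) - (w + x w + x (x w)) := by abel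
    rw [h4] at h0
    exact sub_eq_zero.1 h0
  have h2 : x (w + w + w) = w + w + w := by rw [h1, sum_fix h]
  rw [map_add, map_add] at h2
  have h4 : (x w - w) + (x w - w) + (x w - w) = 0 := by
    have : (x w - w) + (x w - w) + (x w - w) = (x w + x w + x w) - (w + w + w) := by abel
    rw [this, h2, sub_self]
  exact sub_eq_zero.1 (eq_zero_of_three h3 h4)

end fixed

section frame

variable (hV : Module.finrank F V = 3) (h3 : (3 : F) ≠ 0)

include hV

omit hV in
theorem li3 {a b c : V} (h : ∀ α β γ : F, α • a + β • b + γ • c = 0 → α = 0 ∧ β = 0 ∧ γ = 0) :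
    LinearIndependent F ![a, b, c] := by
  rw [Fintype.linearIndependent_iff]
  intro g hg
  rw [Fin.sum_univ_three] at hg
  obtain ⟨h1, h2, h3⟩ := h (g 0) (g 1) (g 2) hg
  intro i
  fin_cases i
  · exact h1
  · exact h2
  · exact h3

omit hV in
theorem of_li3 {a b c : V} (h : LinearIndependent F ![a, b, c]) {α β γ : F} (e : α • a + β • b + γ • c = 0) :
    α = 0 ∧ β = 0 ∧ γ = 0 := by
  rw [Fintype.linearIndependent_iff] at h
  have := h ![α, β, γ] (by rw [Fin.sum_univ_three]; exact e)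
  exact ⟨this 0, this 1, this 2⟩

/-- three independent vectors span -/
theorem span3 {a b c : V} (h : LinearIndependent F ![a, b, c]) (w : V) : ∃ α β γ : F, w = α • a + β • b + γ • c := by
  have hfd : FiniteDimensional F V := Module.finite_of_finrank_pos (by omega)
  let B := basisOfLinearIndependentOfCardEqFinrank h (by rw [Fintype.card_fin, hV])
  refine ⟨B.repr w 0, B.repr w 1, B.repr w 2, ?_⟩
  have h1 := B.sum_repr w
  rw [Fin.sum_univ_three] at h1
  have h2 : ∀ i, B i = ![a, b, c] i := fun i => by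
    rw [coe_basisOfLinearIndependentOfCardEqFinrank]
  rw [h2, h2, h2] at h1
  exact h1.symm

include h3

omit hV in
theorem roots {ω κ : F} (hω : ω ^ 3 = 1) (hω1 : ω ≠ 1) (hκ : κ ^ 3 = 1) : κ = 1 ∨ κ = ω ∨ κ = ω ^ 2 := by
  have h1 : ω ^ 2 + ω + 1 = 0 := by
    have : (ω - 1) * (ω ^ 2 + ω + 1) = 0 := by linear_combination hω
    exact (mul_eq_zero.1 this).resolve_left (sub_ne_zero.2 hω1)
  have h2 : (κ - 1) * ((κ - ω) * (κ - ω ^ 2)) = 0 := by
    linear_combination hκ - hω + (-κ ^ 2 + κ * ω) * h1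
  rcases mul_eq_zero.1 h2 with h | h
  · exact Or.inl (sub_eq_zero.1 h)
  · rcases mul_eq_zero.1 h with h | h
    · exact Or.inr (Or.inl (sub_eq_zero.1 h))
    · exact Or.inr (Or.inr (sub_eq_zero.1 h))

/-- the second step -/
theorem frame_of {x c : Module.End F V} (hxc : x * c = c * x) (hx : x ^ 3 = 1) (hc : c ^ 3 = 1) (hx1 : x ≠ 1)
    (hn : ∀ k, k < 3 → x ^ k * c ≠ 1) {v1 u : V} (hv : x v1 = v1) (hcv : c v1 = v1) (hv0 : v1 ≠ 0) (hu : x u = u)
    (hu1 : ∀ t : F, u ≠ t • v1) :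
    ∃ (k : ℕ) (ω ω' : F) (v2 v3 : V), ω ^ 3 = 1 ∧ ω ≠ 1 ∧ ω' ^ 3 = 1 ∧ ω' ≠ 1 ∧ LinearIndependent F ![v1, v2, v3] ∧
      x v2 = v2 ∧ x v3 = ω • v3 ∧ (x ^ k * c) v1 = v1 ∧ (x ^ k * c) v2 = ω' • v2 ∧ (x ^ k * c) v3 = v3 := by
  have hxc' : ∀ v, x (c v) = c (x v) := fun v => by
    have := congrArg (fun f : Module.End F V => f v) hxc
    simpa [Module.End.mul_apply] using this
  -- `v3`
  obtain ⟨w, hw⟩ : ∃ w, x w ≠ w := by
    by_contra hcon
    push Not at hcon
    exact hx1 (LinearMap.ext hcon)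
  obtain ⟨v3, hv3⟩ : ∃ v3, v3 = w + w - x w - x (x w) := ⟨_, rfl⟩
  have h30 : v3 ≠ 0 := hv3 ▸ ker_ne h3 hx hw
  have h3k : v3 + x v3 + x (x v3) = 0 := hv3 ▸ ker_sum hx w
  have hmeet : ∀ v : V, x v = v → v + x v + x (x v) = 0 → v = 0 := fun v h1 h2 => meet h3 h1 h2
  -- independence
  have hli : LinearIndependent F ![v1, u, v3] := by
    apply li3
    intro α β γ e
    have h1 : x (α • v1 + β • u) = α • v1 + β • u := by rw [map_add, map_smul, map_smul, hv, hu]
    have h2 : γ • v3 = -(α • v1 + β • u) := by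
      rw [eq_neg_iff_add_eq_zero, add_comm]; exact e
    have h4 : γ • v3 = 0 := by
      apply hmeet
      · rw [h2, map_neg, h1]
      · rw [map_smul, map_smul, ← smul_add, ← smul_add, h3k, smul_zero]
    have hγ : γ = 0 := (smul_eq_zero.1 h4).resolve_right h30
    rw [hγ, zero_smul, add_zero] at e
    have hβ : β = 0 := by
      by_contra hβ
      apply hu1 (-(β⁻¹ * α))
      have h5 : β • u = -(α • v1) := by rw [eq_neg_iff_add_eq_zero, add_comm]; exact e
      have h6 : u = β⁻¹ • (β • u) := by rw [smul_smul, inv_mul_cancel₀ hβ, one_smul]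
      rw [h6, h5, smul_neg, smul_smul, neg_smul]
    rw [hβ, zero_smul, add_zero] at e
    exact ⟨(smul_eq_zero.1 e).resolve_right hv0, hβ, hγ⟩
  -- the kernel is the line of `v3`
  have hker : ∀ w : V, w + x w + x (x w) = 0 → ∃ t : F, w = t • v3 := by
    intro w hw
    obtain ⟨α, β, γ, e⟩ := span3 hV hli w
    refine ⟨γ, sub_eq_zero.1 (hmeet _ ?_ ?_)⟩
    · have : w - γ • v3 = α • v1 + β • u := by rw [e]; abel
      rw [this, map_add, map_smul, map_smul, hv, hu]
    · simp only [map_sub, map_smul]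
      have : w - γ • v3 + (x w - γ • x v3) + (x (x w) - γ • x (x v3)) =
          (w + x w + x (x w)) - γ • (v3 + x v3 + x (x v3)) := by
        rw [smul_add, smul_add]; abel
      rw [this, hw, h3k, smul_zero, sub_zero]
  obtain ⟨ω, hω⟩ := hker (x v3) (by
    rw [cube_apply hx, ← h3k]; abel)
  obtain ⟨κ, hκ⟩ := hker (c v3) (by
    rw [hxc', hxc', ← map_add, ← map_add, h3k, map_zero])
  have hω1 : ω ≠ 1 := by
    rintro rfl
    rw [one_smul] at hω
    exact h30 (hmeet _ hω h3k)
  have hcub : ∀ (f : Module.End F V) (t : F) (v : V), f ^ 3 = 1 → f v = t • v → v ≠ 0 → t ^ 3 = 1 := by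
    intro f t v hf hfv hv0
    have h1 := cube_apply hf v
    rw [hfv, map_smul, map_smul, hfv, map_smul, hfv, smul_smul, smul_smul] at h1
    have h2 : (t * t * t - 1) • v = 0 := by rw [sub_smul, one_smul, h1, sub_self]
    have h4 := (smul_eq_zero.1 h2).resolve_right hv0
    linear_combination h4
  have hω3 := hcub x ω v3 hx hω h30
  have hκ3 := hcub c κ v3 hc hκ h30
  -- the exponent
  obtain ⟨k, hk3, hk⟩ : ∃ k, k < 3 ∧ ω ^ k * κ = 1 := by
    rcases roots h3 hω3 hω1 hκ3 with h | h | h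
    · exact ⟨0, by norm_num, by rw [h, pow_zero, one_mul]⟩
    · exact ⟨2, by norm_num, by rw [h, ← pow_succ, hω3]⟩
    · exact ⟨1, by norm_num, by rw [h, pow_one, ← pow_succ', hω3]⟩
  obtain ⟨y, hy⟩ : ∃ y : Module.End F V, y = x ^ k * c := ⟨_, rfl⟩
  have hxk : ∀ (k : ℕ) (v : V), x v = v → (x ^ k) v = v := by
    intro k v h
    induction k with
    | zero => rfl
    | succ k ih => rw [pow_succ, Module.End.mul_apply, h, ih]
  have hxk3 : ∀ (k : ℕ), (x ^ k) v3 = ω ^ k • v3 := by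
    intro k
    induction k with
    | zero => rw [pow_zero, pow_zero, one_smul]; rfl
    | succ k ih => rw [pow_succ, Module.End.mul_apply, hω, map_smul, ih, smul_smul, pow_succ, mul_comm]
  have hcomm : Commute x c := hxc
  have hy1 : y ≠ 1 := hy ▸ hn k hk3
  have hy3 : y ^ 3 = 1 := by
    rw [hy, (hcomm.pow_left k).mul_pow, ← pow_mul, mul_comm k 3, pow_mul, hx, one_pow, hc, one_mul]
  have hyv1 : y v1 = v1 := by rw [hy, Module.End.mul_apply, hcv, hxk k v1 hv]
  have hyv3 : y v3 = v3 := by rw [hy, Module.End.mul_apply, hκ, map_smul, hxk3, smul_smul, mul_comm, hk, one_smul]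
  have hxy : ∀ v, x (y v) = y (x v) := by
    have h1 : Commute x y := by
      rw [hy]
      exact ((Commute.refl x).pow_right k).mul_right hcomm
    intro v
    have := congrArg (fun f : Module.End F V => f v) h1.eq
    simpa [Module.End.mul_apply] using this
  -- the fixed points of `x`
  have hfix : ∀ w : V, x w = w → ∃ α β : F, w = α • v1 + β • u := by
    intro w hw
    obtain ⟨α, β, γ, e⟩ := span3 hV hli w
    refine ⟨α, β, ?_⟩
    have h1 : x w = α • v1 + β • u + (γ * ω) • v3 := by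
      rw [e, map_add, map_add, map_smul, map_smul, map_smul, hv, hu, hω, smul_smul]
    rw [hw, e] at h1
    have h2 : (0 : F) • v1 + (0 : F) • u + (γ - γ * ω) • v3 = 0 := by
      rw [zero_smul, zero_smul, sub_smul, add_zero, zero_add, sub_eq_zero]
      exact add_left_cancel h1
    have h4 := (of_li3 hli h2).2.2
    have h5 : γ * (1 - ω) = 0 := by linear_combination h4
    have h6 : γ = 0 := (mul_eq_zero.1 h5).resolve_right (sub_ne_zero.2 (Ne.symm hω1))
    rw [e, h6, zero_smul, add_zero]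
  obtain ⟨α, β, hyu⟩ := hfix (y u) (by rw [hxy, hu])
  have hβ1 : β ≠ 1 := by
    intro hβ
    rw [hβ, one_smul] at hyu
    have h1 := cube_apply hy3 u
    have h2 : y (α • v1 + u) = α • v1 + (α • v1 + u) := by rw [map_add, map_smul, hyv1, hyu]
    rw [hyu, h2, map_add, map_smul, hyv1, h2] at h1
    have h4 : α • v1 + α • v1 + α • v1 = 0 := by
      have : α • v1 + (α • v1 + (α • v1 + u)) = (α • v1 + α • v1 + α • v1) + u := by abel
      rw [this] at h1
      exact add_eq_right.1 h1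
    have h5 := eq_zero_of_three h3 h4
    rw [h5, zero_add] at hyu
    apply hy1
    apply LinearMap.ext
    intro w
    obtain ⟨α', β', γ', e⟩ := span3 hV hli w
    rw [e, map_add, map_add, map_smul, map_smul, map_smul, hyv1, hyu, hyv3]
    rfl
  obtain ⟨v2, hv2⟩ : ∃ v2, v2 = u + (α / (β - 1)) • v1 := ⟨_, rfl⟩
  have hβ1' := sub_ne_zero.2 hβ1
  have hyv2 : y v2 = β • v2 := by
    rw [hv2, map_add, map_smul, hyu, hyv1, smul_add, smul_smul, add_comm (α • v1), add_assoc, ← add_smul]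
    congr 2
    field_simp
    ring
  have hxv2 : x v2 = v2 := by rw [hv2, map_add, map_smul, hu, hv]
  have hli2 : LinearIndependent F ![v1, v2, v3] := by
    apply li3
    intro α' β' γ' e
    have h1 : (α' + β' * (α / (β - 1))) • v1 + β' • u + γ' • v3 = 0 := by
      rw [← e, hv2, smul_add, smul_smul, add_smul]; abel
    obtain ⟨h2, h4, h5⟩ := of_li3 hli h1
    rw [h4, zero_mul, add_zero] at h2
    exact ⟨h2, h4, h5⟩
  have hv20 : v2 ≠ 0 := by
    intro h0
    have := (of_li3 hli2 (α := 0) (β := 1) (γ := 0) (by rw [h0]; simp)).2.1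
    exact one_ne_zero this
  refine ⟨k, ω, β, v2, v3, hω3, hω1, hcub y β v2 hy3 hyv2 hv20, hβ1, hli2, hxv2, hω, ?_, ?_, ?_⟩
  · rw [← hy]; exact hyv1
  · rw [← hy]; exact hyv2
  · rw [← hy]; exact hyv3

/-- **two commuting endomorphisms of order three.** -/
theorem exists_frame {a b : Module.End F V} (hab : a * b = b * a) (ha : a ^ 3 = 1) (hb : b ^ 3 = 1)
    (hn : ∀ i j : ℕ, a ^ i * b ^ j = 1 → 3 ∣ i ∧ 3 ∣ j) {v1 : V} (hv0 : v1 ≠ 0) (hav : a v1 = v1) (hbv : b v1 = v1) :
    ∃ (i j k l : ℕ) (ω ω' : F) (v2 v3 : V), ω ^ 3 = 1 ∧ ω ≠ 1 ∧ ω' ^ 3 = 1 ∧ ω' ≠ 1 ∧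
      LinearIndependent F ![v1, v2, v3] ∧ (a ^ i * b ^ j) v1 = v1 ∧ (a ^ i * b ^ j) v2 = v2 ∧
      (a ^ i * b ^ j) v3 = ω • v3 ∧ (a ^ k * b ^ l) v1 = v1 ∧ (a ^ k * b ^ l) v2 = ω' • v2 ∧
      (a ^ k * b ^ l) v3 = v3 := by
  have hcom : Commute a b := hab
  -- it is enough to find `x = a ^ i b ^ j` with a further fixed vector
  suffices h : ∃ (i j k l : ℕ) (u : V), (a ^ i * b ^ j) u = u ∧ (∀ t : F, u ≠ t • v1) ∧
      ∀ m n : ℕ, m < 3 → ¬ (3 ∣ i * m + k ∧ 3 ∣ j * m + l) ∧ ¬ (3 ∣ i ∧ 3 ∣ j) by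
    obtain ⟨i, j, k, l, u, hu, hu1, hnn⟩ := h
    have hpow : ∀ (f : Module.End F V) (n : ℕ) (v : V), f v = v → (f ^ n) v = v := by
      intro f n v h
      induction n with
      | zero => rfl
      | succ n ih => rw [pow_succ, Module.End.mul_apply, h, ih]
    have h1 : ∀ i j i' j' : ℕ, (a ^ i * b ^ j) * (a ^ i' * b ^ j') = a ^ (i + i') * b ^ (j + j') := by
      intro i j i' j'
      rw [pow_add, pow_add]
      have : b ^ j * a ^ i' = a ^ i' * b ^ j := (hcom.pow_pow i' j).symm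
      calc (a ^ i * b ^ j) * (a ^ i' * b ^ j') = a ^ i * (b ^ j * a ^ i') * b ^ j' := by simp only [mul_assoc]
        _ = _ := by rw [this]; simp only [mul_assoc]
    have h2 : ∀ i j m : ℕ, (a ^ i * b ^ j) ^ m = a ^ (i * m) * b ^ (j * m) := by
      intro i j m
      rw [(hcom.pow_pow i j).mul_pow, ← pow_mul, ← pow_mul]
    have hc3 : ∀ i j : ℕ, (a ^ i * b ^ j) ^ 3 = 1 := by
      intro i j
      rw [h2, mul_comm i 3, mul_comm j 3, pow_mul, pow_mul, ha, hb, one_pow, one_pow, one_mul]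
    have hfx : ∀ i j : ℕ, (a ^ i * b ^ j) v1 = v1 := fun i j => by
      rw [Module.End.mul_apply, hpow b j v1 hbv, hpow a i v1 hav]
    obtain ⟨m, ω, ω', v2, v3, h4, h5, h6, h7, h8, h9, h10, h11, h12, h13⟩ :=
      frame_of hV h3 (x := a ^ i * b ^ j) (c := a ^ k * b ^ l) (by rw [h1, h1, add_comm i k, add_comm j l])
        (hc3 i j) (hc3 k l) (fun h => (hnn 0 0 (by norm_num)).2 (hn _ _ h))
        (fun m hm h => (hnn m 0 hm).1 (hn _ _ (by rw [h2, h1] at h; exact h))) (hfx i j) (hfx k l) hv0 hu hu1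
    rw [h2, h1] at h11 h12 h13
    exact ⟨i, j, i * m + k, j * m + l, ω, ω', v2, v3, h4, h5, h6, h7, h8, hfx i j, h9, h10, h11, h12, h13⟩
  by_contra hcon
  push Not at hcon
  have hab' : ∀ v, a (b v) = b (a v) := fun v => by
    have := congrArg (fun f : Module.End F V => f v) hab
    simpa [Module.End.mul_apply] using this
  have ha3 := fun v => cube_apply ha v
  have hb3 := fun v => cube_apply hb v
  have key : ∀ i j k l : ℕ, (∀ m n : ℕ, m < 3 → ¬ (3 ∣ i * m + k ∧ 3 ∣ j * m + l) ∧ ¬ (3 ∣ i ∧ 3 ∣ j)) →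
      ∀ u : V, (a ^ i * b ^ j) u = u → ∃ t : F, u = t • v1 := by
    intro i j k l h u hu
    by_contra hne
    push Not at hne
    obtain ⟨m, n, hm, h1⟩ := hcon i j k l u hu hne
    exact (h m n hm).2 (h1 fun h2 h3 => (h m n hm).1 ⟨h2, h3⟩)
  have kA : ∀ u : V, a u = u → ∃ t : F, u = t • v1 := fun u hu =>
    key 1 0 0 1 (by intro m n hm; interval_cases m <;> norm_num) u (by simpa using hu)
  have kB : ∀ u : V, b u = u → ∃ t : F, u = t • v1 := fun u hu =>
    key 0 1 1 0 (by intro m n hm; interval_cases m <;> norm_num) u (by simpa using hu)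
  have kC : ∀ u : V, a (b u) = u → ∃ t : F, u = t • v1 := fun u hu =>
    key 1 1 1 0 (by intro m n hm; interval_cases m <;> norm_num) u (by simpa using hu)
  have kD : ∀ u : V, a (b (b u)) = u → ∃ t : F, u = t • v1 := fun u hu =>
    key 1 2 1 0 (by intro m n hm; interval_cases m <;> norm_num) u (by
      simpa [pow_two, Module.End.mul_apply] using hu)
  have hall : ∀ v : V, ∃ t : F, v = t • v1 := by
    intro v
    obtain ⟨tA, hA⟩ := kA (v + a v + a (a v)) (sum_fix ha v)
    obtain ⟨tB, hB⟩ := kB (v + b v + b (b v)) (sum_fix hb v)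
    obtain ⟨tC, hC⟩ := kC (v + a (b v) + a (b (a (b v)))) (by
      simp only [map_add, hab', ha3, hb3]; abel)
    obtain ⟨tD, hD⟩ := kD (v + a (b (b v)) + a (b (b (a (b (b v)))))) (by
      simp only [map_add, hab', ha3, hb3]; abel)
    obtain ⟨tE, hE⟩ := kA ((v + b v + b (b v)) + a (v + b v + b (b v)) + a (a (v + b v + b (b v)))) (sum_fix ha _)
    have h1 : v + v + v = (v + a v + a (a v)) + (v + b v + b (b v)) + (v + a (b v) + a (b (a (b v)))) +
        (v + a (b (b v)) + a (b (b (a (b (b v)))))) -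
        ((v + b v + b (b v)) + a (v + b v + b (b v)) + a (a (v + b v + b (b v)))) := by
      simp only [map_add, hab', ha3, hb3]; abel
    rw [hE, hA, hB, hC, hD, ← three_smul_eq (F := F), ← add_smul, ← add_smul, ← add_smul, ← sub_smul] at h1
    refine ⟨3⁻¹ * (tA + tB + tC + tD - tE), ?_⟩
    rw [mul_smul, ← h1, smul_smul, inv_mul_cancel₀ h3, one_smul]
  have hfd : FiniteDimensional F V := Module.finite_of_finrank_pos (by omega)
  have h1 : Module.finrank F V ≤ 1 := finrank_le_one v1 fun w => by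
    obtain ⟨t, ht⟩ := hall w
    exact ⟨t, ht.symm⟩
  omega

/-- an invariant line of the commutant -/
theorem exists_line {e : Module.End F V} (he : e ^ 3 = 1) (he1 : e ≠ 1) {u : V} (hu0 : u ≠ 0) (hu : e u = u) :
    ∃ v : V, v ≠ 0 ∧ ∀ g : Module.End F V, g * e = e * g → ∃ t : F, g v = t • v := by
  have hfd : FiniteDimensional F V := Module.finite_of_finrank_pos (by omega)
  obtain ⟨w, hw⟩ : ∃ w, e w ≠ w := by
    by_contra hcon
    push Not at hcon
    exact he1 (LinearMap.ext hcon)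
  obtain ⟨w', hw'⟩ : ∃ w', w' = w + w - e w - e (e w) := ⟨_, rfl⟩
  have h1 : w' ≠ 0 := hw' ▸ ker_ne h3 he hw
  have h2 : w' + e w' + e (e w') = 0 := hw' ▸ ker_sum he w
  let C : Submodule F V := LinearMap.ker (e - 1)
  let K : Submodule F V := LinearMap.ker (1 + e + e * e)
  have hC : ∀ v, v ∈ C ↔ e v = v := fun v => by
    rw [LinearMap.mem_ker, LinearMap.sub_apply, sub_eq_zero]; rfl
  have hK : ∀ v, v ∈ K ↔ v + e v + e (e v) = 0 := fun v => by
    rw [LinearMap.mem_ker]; rfl
  have hd : Disjoint C K := by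
    rw [Submodule.disjoint_def]
    intro v hv hv'
    exact meet h3 ((hC v).1 hv) ((hK v).1 hv')
  have hdim := Submodule.finrank_add_finrank_le_of_disjoint hd
  rw [hV] at hdim
  have hC0 : 0 < Module.finrank F C := Module.finrank_pos_iff_exists_ne_zero.2
    ⟨⟨u, (hC u).2 hu⟩, fun h => hu0 (congrArg Subtype.val h)⟩
  have hK0 : 0 < Module.finrank F K := Module.finrank_pos_iff_exists_ne_zero.2
    ⟨⟨w', (hK w').2 h2⟩, fun h => h1 (congrArg Subtype.val h)⟩
  have hcomm : ∀ g : Module.End F V, g * e = e * g → ∀ v, g (e v) = e (g v) := fun g hg v => by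
    have := congrArg (fun f : Module.End F V => f v) hg
    simpa [Module.End.mul_apply] using this
  have hfin : ∀ (S : Submodule F V), Module.finrank F S = 1 →
      (∀ g : Module.End F V, g * e = e * g → ∀ v ∈ S, g v ∈ S) → ∃ v : V, v ≠ 0 ∧ ∀ g : Module.End F V, g * e = e * g →
        ∃ t : F, g v = t • v := by
    intro S hS hinv
    obtain ⟨v, hv0, hv⟩ := finrank_eq_one_iff'.1 hS
    refine ⟨v, fun h => hv0 (Subtype.ext h), fun g hg => ?_⟩
    obtain ⟨t, ht⟩ := hv ⟨g v, hinv g hg v v.2⟩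
    exact ⟨t, (congrArg Subtype.val ht).symm⟩
  rcases (show Module.finrank F C = 1 ∨ Module.finrank F K = 1 by omega) with h | h
  · refine hfin C h fun g hg v hv => ?_
    rw [hC] at hv ⊢
    rw [← hcomm g hg, hv]
  · refine hfin K h fun g hg v hv => ?_
    rw [hK] at hv ⊢
    rw [← hcomm g hg, ← hcomm g hg, ← map_add, ← map_add, hv, map_zero]

/-- a scalar multiple with a fixed vector -/
theorem exists_fix (h2 : (2 : F) ≠ 0) {e : Module.End F V} (he : e ^ 3 = 1) (hs : ∀ t : F, e ≠ t • 1) :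
    ∃ t : F, t ^ 3 = 1 ∧ ∃ u : V, u ≠ 0 ∧ (t • e) u = u := by
  by_cases hex : ∃ v : V, v + e v + e (e v) ≠ 0
  · obtain ⟨v, hv⟩ := hex
    exact ⟨1, one_pow 3, _, hv, by rw [one_smul]; exact sum_fix he v⟩
  push Not at hex
  have h1 : 1 + e + e * e = 0 := LinearMap.ext fun v => hex v
  have h4 : ((2 : F) • e + 1) * ((2 : F) • e + 1) = (-3 : F) • (1 : Module.End F V) := by
    have e1 : ((2 : F) • e + 1) * ((2 : F) • e + 1) = (4 : F) • (1 + e + e * e) + (-3 : F) • (1 : Module.End F V) := by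
      rw [add_mul, mul_add, mul_one, one_mul, smul_mul_smul_comm]
      module
    rw [e1, h1, smul_zero, zero_add]
  have h5 : (LinearMap.det ((2 : F) • e + 1)) ^ 2 = (-3 : F) ^ 3 := by
    rw [pow_two, ← map_mul, h4, LinearMap.det_smul, hV, map_one, mul_one]
  obtain ⟨s, hs'⟩ : ∃ s : F, s ^ 2 = -3 := by
    refine ⟨LinearMap.det ((2 : F) • e + 1) / (-3), ?_⟩
    have h6 : (-3 : F) ≠ 0 := neg_ne_zero.2 h3
    rw [div_pow, h5]
    field_simp
  obtain ⟨ω, hω⟩ : ∃ ω : F, ω ^ 2 + ω + 1 = 0 := by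
    refine ⟨(-1 + s) / 2, ?_⟩
    field_simp
    linear_combination hs'
  have hω3 : ω ^ 3 = 1 := by linear_combination (ω - 1) * hω
  -- `e - ω ^ 2` is not zero
  obtain ⟨u, hu⟩ : ∃ u : V, e u ≠ ω ^ 2 • u := by
    by_contra hcon
    push Not at hcon
    exact hs (ω ^ 2) (LinearMap.ext hcon)
  refine ⟨ω ^ 2, by rw [← pow_mul, mul_comm, pow_mul, hω3, one_pow], e u - ω ^ 2 • u, sub_ne_zero.2 hu, ?_⟩
  have h6 : e (e u) = -u - e u := by
    have h7 := hex u
    have h8 : e (e u) = (u + e u + e (e u)) - u - e u := by abel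
    rw [h8, h7, zero_sub]
  have h7 : ω ^ 2 * ω ^ 2 = ω := by linear_combination ω * hω3
  have h8 : -ω ^ 2 - ω = 1 := by linear_combination -hω
  rw [LinearMap.smul_apply, map_sub, map_smul, h6, smul_sub, smul_sub, smul_neg, smul_smul, h7]
  have h9 : -(ω ^ 2 • u) - ω ^ 2 • e u - ω • e u = (-ω ^ 2 - ω) • e u - ω ^ 2 • u := by module
  rw [h9, h8, one_smul]

end frame

end Cfsg.Agent.H314.G3
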