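import Cfsg.Agent.CpAut.Psl
import Cfsg.Agent.H314.G3.Eig

/-!
# S2187, TRI-3: commuting elements of `GL_3(F)` of order three modulo scalars (helper314)

* `exists_eig` : `a`, `b` commuting, `a ^ 3`, `b ^ 3` scalar, generating a group of order nine modulo scalars: up to scalars
  some words in `a`, `b` are conjugate to `diag(1, 1, ω)`, `diag(1, ω', 1)`;
* `diag_of_comm` : the elements commuting with both are diagonal.
-/

set_option autoImplicit false
set_option linter.unusedSectionVars false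

namespace Cfsg.Agent.H314.G3

open Matrix Cfsg.Agent.CpAut.Psl

variable {F : Type*} [Field F]

/-- the endomorphism of an element of `GL` -/
noncomputable def en (g : GL (Fin 3) F) : Module.End F (Fin 3 → F) :=
  Matrix.toLinAlgEquiv' (g : Matrix (Fin 3) (Fin 3) F)

theorem en_apply (g : GL (Fin 3) F) (v : Fin 3 → F) : en g v = (g : Matrix (Fin 3) (Fin 3) F) *ᵥ v :=
  Matrix.toLinAlgEquiv'_apply _ _

theorem en_mul (g h : GL (Fin 3) F) : en (g * h) = en g * en h := by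
  unfold en
  rw [Units.val_mul, map_mul]

theorem en_one : en (1 : GL (Fin 3) F) = 1 := by
  unfold en
  rw [Units.val_one, map_one]

theorem en_pow (g : GL (Fin 3) F) (k : ℕ) : en (g ^ k) = en g ^ k := by
  induction k with
  | zero => rw [pow_zero, pow_zero, en_one]
  | succ k ih => rw [pow_succ, pow_succ, en_mul, ih]

theorem en_injective {g h : GL (Fin 3) F} (e : en g = en h) : g = h :=
  Units.ext ((Matrix.toLinAlgEquiv' (R := F) (n := Fin 3)).injective e)

theorem coe_scg (c : Fˣ) : ((scg c : GL (Fin 3) F) : Matrix (Fin 3) (Fin 3) F) = (c : F) • 1 := by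
  show Matrix.scalar (Fin 3) (c : F) = _
  rw [Matrix.scalar_apply, Matrix.smul_one_eq_diagonal]

theorem en_scg (c : Fˣ) : en (scg c : GL (Fin 3) F) = (c : F) • 1 := by
  unfold en
  rw [coe_scg, map_smul, map_one]

theorem scg_comm (c : Fˣ) (g : GL (Fin 3) F) : scg c * g = g * scg c := by
  apply en_injective
  rw [en_mul, en_mul, en_scg, smul_mul_assoc, one_mul, mul_smul_comm, mul_one]

theorem scg_mul (c d : Fˣ) : (scg (c * d) : GL (Fin 3) F) = scg c * scg d := by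
  apply en_injective
  rw [en_mul, en_scg, en_scg, en_scg, Units.val_mul, smul_mul_smul_comm, one_mul]

theorem scg_pow (c : Fˣ) (k : ℕ) : (scg (c ^ k) : GL (Fin 3) F) = scg c ^ k := by
  induction k with
  | zero =>
    apply en_injective
    rw [pow_zero, pow_zero, en_scg, en_one, Units.val_one, one_smul]
  | succ k ih => rw [pow_succ, pow_succ, scg_mul, ih]

theorem scg_inv (c : Fˣ) : (scg c⁻¹ : GL (Fin 3) F) = (scg c)⁻¹ := by
  rw [eq_inv_iff_mul_eq_one, ← scg_mul, inv_mul_cancel]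
  have := scg_pow (F := F) c 0
  rwa [pow_zero, pow_zero] at this

/-- scalar matrices -/
def IsSc (g : GL (Fin 3) F) : Prop := ∃ c : Fˣ, g = scg c

theorem isSc_iff {g : GL (Fin 3) F} : IsSc g ↔ ∃ t : F, en g = t • 1 := by
  constructor
  · rintro ⟨c, rfl⟩
    exact ⟨c, en_scg c⟩
  · rintro ⟨t, ht⟩
    have ht0 : t ≠ 0 := by
      rintro rfl
      rw [zero_smul] at ht
      have h1 : en g (fun _ => 1) = 0 := by rw [ht]; rfl
      have h2 : en g⁻¹ (en g (fun _ => 1)) = fun _ => 1 := by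
        have : (en g⁻¹ * en g) (fun _ => (1 : F)) = fun _ => 1 := by
          rw [← en_mul, inv_mul_cancel, en_one]; rfl
        exact this
      rw [h1, map_zero] at h2
      exact zero_ne_one (congrFun h2 0)
    exact ⟨Units.mk0 t ht0, en_injective (by rw [ht, en_scg, Units.val_mk0])⟩

theorem exists_cube [Finite F] (α β : Fˣ) : ∃ i j : ℕ, ¬ (3 ∣ i ∧ 3 ∣ j) ∧ ∃ μ : Fˣ, α ^ i * β ^ j = μ ^ 3 := by
  obtain ⟨g, hg⟩ := IsCyclic.exists_generator (α := Fˣ)
  obtain ⟨m, hm⟩ := (mem_powers_iff_mem_zpowers.2 (hg α) : α ∈ Submonoid.powers g)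
  obtain ⟨n, hn⟩ := (mem_powers_iff_mem_zpowers.2 (hg β) : β ∈ Submonoid.powers g)
  have hm' : g ^ m = α := hm
  have hn' : g ^ n = β := hn
  have key : ∀ i j : ℕ, 3 ∣ m * i + n * j → ∃ μ : Fˣ, α ^ i * β ^ j = μ ^ 3 := by
    rintro i j ⟨k, hk⟩
    refine ⟨g ^ k, ?_⟩
    rw [← hm', ← hn', ← pow_mul, ← pow_mul, ← pow_add, hk, ← pow_mul, mul_comm]
  have h : 3 ∣ m ∨ 3 ∣ n ∨ 3 ∣ m + n ∨ 3 ∣ m + n * 2 := by
    have h1 : m % 3 = 0 ∨ m % 3 = 1 ∨ m % 3 = 2 := by omega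
    have h2 : n % 3 = 0 ∨ n % 3 = 1 ∨ n % 3 = 2 := by omega
    rcases h1 with h1 | h1 | h1 <;> rcases h2 with h2 | h2 | h2 <;> omega
  rcases h with h | h | h | h
  · exact ⟨1, 0, by norm_num, key 1 0 (by simpa using h)⟩
  · exact ⟨0, 1, by norm_num, key 0 1 (by simpa using h)⟩
  · exact ⟨1, 1, by norm_num, key 1 1 (by simpa using h)⟩
  · exact ⟨1, 2, by norm_num, key 1 2 (by simpa using h)⟩

theorem exists_eig [Finite F] (h2 : (2 : F) ≠ 0) (h3 : (3 : F) ≠ 0) {a b : GL (Fin 3) F} (hab : a * b = b * a)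
    (ha : IsSc (a ^ 3)) (hb : IsSc (b ^ 3)) (hn : ∀ i j : ℕ, IsSc (a ^ i * b ^ j) → 3 ∣ i ∧ 3 ∣ j) :
    ∃ (P x y : GL (Fin 3) F) (ω ω' : F), ω ^ 3 = 1 ∧ ω ≠ 1 ∧ ω' ^ 3 = 1 ∧ ω' ≠ 1 ∧
      (∃ (i j : ℕ) (c : Fˣ), x = scg c * (a ^ i * b ^ j)) ∧ (∃ (i j : ℕ) (c : Fˣ), y = scg c * (a ^ i * b ^ j)) ∧
      ((P⁻¹ * x * P : GL (Fin 3) F) : Matrix (Fin 3) (Fin 3) F) = diagonal ![1, 1, ω] ∧
      ((P⁻¹ * y * P : GL (Fin 3) F) : Matrix (Fin 3) (Fin 3) F) = diagonal ![1, ω', 1] := by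
  have hV : Module.finrank F (Fin 3 → F) = 3 := by rw [Module.finrank_fintype_fun_eq_card, Fintype.card_fin]
  have hcom : Commute a b := hab
  obtain ⟨α, hα⟩ := ha
  obtain ⟨β, hβ⟩ := hb
  -- the element whose cube is the cube of a scalar
  obtain ⟨i, j, hij, μ, hμ⟩ := exists_cube α β
  obtain ⟨e, he⟩ : ∃ e : GL (Fin 3) F, e = scg μ⁻¹ * (a ^ i * b ^ j) := ⟨_, rfl⟩
  have hpow : ∀ (c : Fˣ) (g : GL (Fin 3) F) (k : ℕ), (scg c * g) ^ k = scg (c ^ k) * g ^ k := fun c g k => by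
    rw [(show Commute (scg c) g from scg_comm c g).mul_pow, scg_pow]
  have hab3 : (a ^ i * b ^ j) ^ 3 = scg (α ^ i * β ^ j) := by
    rw [(hcom.pow_pow i j).mul_pow, ← pow_mul, ← pow_mul, mul_comm i 3, mul_comm j 3, pow_mul, pow_mul, hα, hβ,
      ← scg_pow, ← scg_pow, ← scg_mul]
  have he3 : e ^ 3 = 1 := by
    rw [he, hpow, hab3, ← scg_mul, hμ, inv_pow, inv_mul_cancel]
    have := scg_pow (F := F) 1 0
    rwa [pow_zero, pow_zero] at this
  have hes : ¬ IsSc e := by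
    rintro ⟨c, hc⟩
    apply hij
    apply hn
    refine ⟨μ * c, ?_⟩
    rw [scg_mul, ← hc, he, ← mul_assoc, ← scg_mul, mul_inv_cancel]
    have := scg_pow (F := F) 1 0
    rw [pow_zero, pow_zero] at this
    rw [this, one_mul]
  obtain ⟨t, ht3, u, hu0, hu⟩ := exists_fix hV h3 h2 (e := en e) (by rw [← en_pow, he3, en_one])
    (fun t ht => hes (isSc_iff.2 ⟨t, ht⟩))
  have ht0 : t ≠ 0 := by
    rintro rfl
    norm_num at ht3
  obtain ⟨v1, hv0, hv⟩ := exists_line hV h3 (e := t • en e) (by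
      rw [smul_pow, ht3, ← en_pow, he3, en_one, one_smul]) (by
      intro h
      apply hes
      refine isSc_iff.2 ⟨t⁻¹, ?_⟩
      rw [← h, smul_smul, inv_mul_cancel₀ ht0, one_smul]) hu0 hu
  -- `a`, `b` commute with `e`
  have hce : ∀ g : GL (Fin 3) F, g * a = a * g → g * b = b * g → ∃ s : F, en g v1 = s • v1 := by
    intro g hga hgb
    apply hv
    have h1 : g * e = e * g := by
      have h2 : Commute g (a ^ i * b ^ j) := ((show Commute g a from hga).pow_right i).mul_right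
        ((show Commute g b from hgb).pow_right j)
      rw [he, mul_assoc, ← h2.eq, ← mul_assoc, ← scg_comm, mul_assoc]
    rw [mul_smul_comm, smul_mul_assoc, ← en_mul, ← en_mul, h1]
  have hne : ∀ (g : GL (Fin 3) F) (s : F), en g v1 = s • v1 → s ≠ 0 := by
    rintro g s h rfl
    rw [zero_smul] at h
    have h2 : en g⁻¹ (en g v1) = v1 := by
      have : (en g⁻¹ * en g) v1 = v1 := by rw [← en_mul, inv_mul_cancel, en_one]; rfl
      exact this
    rw [h, map_zero] at h2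
    exact hv0 h2.symm
  obtain ⟨sa, hsa⟩ := hce a rfl hab
  obtain ⟨sb, hsb⟩ := hce b hab.symm rfl
  obtain ⟨ca, hca⟩ : ∃ c : Fˣ, (c : F) = sa := ⟨Units.mk0 sa (hne _ _ hsa), rfl⟩
  obtain ⟨cb, hcb⟩ : ∃ c : Fˣ, (c : F) = sb := ⟨Units.mk0 sb (hne _ _ hsb), rfl⟩
  obtain ⟨a', ha'⟩ : ∃ a' : GL (Fin 3) F, a' = scg ca⁻¹ * a := ⟨_, rfl⟩
  obtain ⟨b', hb'⟩ : ∃ b' : GL (Fin 3) F, b' = scg cb⁻¹ * b := ⟨_, rfl⟩
  have hav : en a' v1 = v1 := by
    rw [ha', en_mul, Module.End.mul_apply, hsa, map_smul, en_scg, ← hca]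
    show (ca : F) • (((ca⁻¹ : Fˣ) : F) • v1) = v1
    rw [smul_smul, ← Units.val_mul, mul_inv_cancel, Units.val_one, one_smul]
  have hbv : en b' v1 = v1 := by
    rw [hb', en_mul, Module.End.mul_apply, hsb, map_smul, en_scg, ← hcb]
    show (cb : F) • (((cb⁻¹ : Fˣ) : F) • v1) = v1
    rw [smul_smul, ← Units.val_mul, mul_inv_cancel, Units.val_one, one_smul]
  have hfixsc : ∀ (c : Fˣ), en (scg c : GL (Fin 3) F) v1 = v1 → (scg c : GL (Fin 3) F) = 1 := by
    intro c hc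
    rw [en_scg] at hc
    have h1 : (c : F) • v1 = v1 := hc
    have h4 : ((c : F) - 1) • v1 = 0 := by rw [sub_smul, one_smul, h1, sub_self]
    have h5 := (smul_eq_zero.1 h4).resolve_right hv0
    apply en_injective
    rw [en_scg, sub_eq_zero.1 h5, one_smul, en_one]
  have hpfix : ∀ (g : GL (Fin 3) F) (k : ℕ), en g v1 = v1 → en (g ^ k) v1 = v1 := by
    intro g k h
    induction k with
    | zero => rw [pow_zero, en_one]; rfl
    | succ k ih => rw [pow_succ, en_mul, Module.End.mul_apply, h, ih]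
  have ha'3 : a' ^ 3 = 1 := by
    have h1 : a' ^ 3 = scg ((ca⁻¹) ^ 3 * α) := by rw [ha', hpow, hα, ← scg_mul]
    rw [h1]
    exact hfixsc _ (by rw [← h1]; exact hpfix a' 3 hav)
  have hb'3 : b' ^ 3 = 1 := by
    have h1 : b' ^ 3 = scg ((cb⁻¹) ^ 3 * β) := by rw [hb', hpow, hβ, ← scg_mul]
    rw [h1]
    exact hfixsc _ (by rw [← h1]; exact hpfix b' 3 hbv)
  have hword : ∀ i j : ℕ, a' ^ i * b' ^ j = scg ((ca⁻¹) ^ i * (cb⁻¹) ^ j) * (a ^ i * b ^ j) := by
    intro i j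
    rw [ha', hb', hpow, hpow, scg_mul]
    calc scg (ca⁻¹ ^ i) * a ^ i * (scg (cb⁻¹ ^ j) * b ^ j) = scg (ca⁻¹ ^ i) * (a ^ i * scg (cb⁻¹ ^ j)) * b ^ j := by
          simp only [mul_assoc]
      _ = scg (ca⁻¹ ^ i) * (scg (cb⁻¹ ^ j) * a ^ i) * b ^ j := by rw [scg_comm (cb⁻¹ ^ j) (a ^ i)]
      _ = _ := by simp only [mul_assoc]
  have hab' : a' * b' = b' * a' := by
    rw [ha', hb']
    calc scg ca⁻¹ * a * (scg cb⁻¹ * b) = scg ca⁻¹ * (a * scg cb⁻¹) * b := by simp only [mul_assoc]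
      _ = scg ca⁻¹ * (scg cb⁻¹ * a) * b := by rw [scg_comm cb⁻¹ a]
      _ = (scg ca⁻¹ * scg cb⁻¹) * (a * b) := by simp only [mul_assoc]
      _ = (scg cb⁻¹ * scg ca⁻¹) * (b * a) := by rw [hab, scg_comm ca⁻¹ (scg cb⁻¹)]
      _ = scg cb⁻¹ * (scg ca⁻¹ * b) * a := by simp only [mul_assoc]
      _ = scg cb⁻¹ * (b * scg ca⁻¹) * a := by rw [scg_comm ca⁻¹ b]
      _ = _ := by simp only [mul_assoc]
  obtain ⟨i1, j1, k1, l1, ω, ω', v2, v3, h4, h5, h6, h7, hli, h8, h9, h10, h11, h12, h13⟩ :=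
    exists_frame hV h3 (a := en a') (b := en b') (by rw [← en_mul, ← en_mul, hab'])
      (by rw [← en_pow, ha'3, en_one]) (by rw [← en_pow, hb'3, en_one]) (by
        intro i j h
        rw [← en_pow, ← en_pow, ← en_mul, ← en_one] at h
        have h1 := en_injective h
        rw [hword] at h1
        apply hn
        refine ⟨((ca⁻¹) ^ i * (cb⁻¹) ^ j)⁻¹, ?_⟩
        rw [scg_inv]
        exact (inv_eq_of_mul_eq_one_right h1).symm) hv0 hav hbv
  rw [← en_pow, ← en_pow, ← en_mul] at h8 h9 h10 h11 h12 h13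
  -- the base change
  let B : Module.Basis (Fin 3) F (Fin 3 → F) := basisOfLinearIndependentOfCardEqFinrank hli (by rw [Fintype.card_fin, hV])
  obtain ⟨P, hP⟩ := exists_gl B
  have hPe : ∀ i, en P (Pi.single i 1) = ![v1, v2, v3] i := by
    intro i
    rw [en_apply, hP, Finset.sum_eq_single i]
    · rw [Pi.single_eq_same, one_smul, coe_basisOfLinearIndependentOfCardEqFinrank]
    · intro j _ hj
      rw [Pi.single_eq_of_ne hj, zero_smul]
    · intro h; exact absurd (Finset.mem_univ _) h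
  have hdiag : ∀ (g : GL (Fin 3) F) (d : Fin 3 → F), (∀ i, en g (![v1, v2, v3] i) = d i • ![v1, v2, v3] i) →
      ((P⁻¹ * g * P : GL (Fin 3) F) : Matrix (Fin 3) (Fin 3) F) = diagonal d := by
    intro g d h
    have h1 : ∀ i, ((P⁻¹ * g * P : GL (Fin 3) F) : Matrix (Fin 3) (Fin 3) F) *ᵥ Pi.single i 1 = d i • Pi.single i 1 := by
      intro i
      rw [← en_apply, en_mul, en_mul, Module.End.mul_apply, hPe, Module.End.mul_apply, h, map_smul, ← hPe]
      congr 1
      have : (en P⁻¹ * en P) (Pi.single i (1 : F)) = Pi.single i 1 := by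
        rw [← en_mul, inv_mul_cancel, en_one]; rfl
      exact this
    ext k i
    have h2 := congrFun (h1 i) k
    rw [Matrix.mulVec_single_one] at h2
    rw [show ((P⁻¹ * g * P : GL (Fin 3) F) : Matrix (Fin 3) (Fin 3) F) k i = _ from h2, Pi.smul_apply, smul_eq_mul,
      diagonal_apply, Pi.single_apply]
    split_ifs with hki
    · rw [hki, mul_one]
    · rw [mul_zero]
  refine ⟨P, a' ^ i1 * b' ^ j1, a' ^ k1 * b' ^ l1, ω, ω', h4, h5, h6, h7, ⟨i1, j1, _, hword _ _⟩,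
    ⟨k1, l1, _, hword _ _⟩, hdiag _ _ ?_, hdiag _ _ ?_⟩
  · intro i
    fin_cases i
    · exact h8.trans (one_smul F v1).symm
    · exact h9.trans (one_smul F v2).symm
    · exact h10
  · intro i
    fin_cases i
    · exact h11.trans (one_smul F v1).symm
    · exact h12
    · exact h13.trans (one_smul F v3).symm

/-- matrices commuting with both are diagonal -/
theorem diag_of_comm {ω ω' : F} (hω : ω ≠ 1) (hω' : ω' ≠ 1) {N : Matrix (Fin 3) (Fin 3) F}
    (h1 : N * diagonal ![1, 1, ω] = diagonal ![1, 1, ω] * N) (h2 : N * diagonal ![1, ω', 1] = diagonal ![1, ω', 1] * N) :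
    N = diagonal fun i => N i i := by
  have e1 : ∀ i j, N i j * ![1, 1, ω] j = ![1, 1, ω] i * N i j := fun i j => by
    have := congrFun (congrFun h1 i) j
    rwa [Matrix.mul_diagonal, Matrix.diagonal_mul] at this
  have e2 : ∀ i j, N i j * ![1, ω', 1] j = ![1, ω', 1] i * N i j := fun i j => by
    have := congrFun (congrFun h2 i) j
    rwa [Matrix.mul_diagonal, Matrix.diagonal_mul] at this
  have k : ∀ {x c : F}, c ≠ 1 → x * c = x → x = 0 := by
    intro x c hc h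
    have : x * (c - 1) = 0 := by linear_combination h
    exact (mul_eq_zero.1 this).resolve_right (sub_ne_zero.2 hc)
  have h01 : N 0 1 = 0 := k hω' (by simpa using e2 0 1)
  have h10 : N 1 0 = 0 := k hω' (by simpa [mul_comm] using (e2 1 0).symm)
  have h02 : N 0 2 = 0 := k hω (by simpa using e1 0 2)
  have h20 : N 2 0 = 0 := k hω (by simpa [mul_comm] using (e1 2 0).symm)
  have h12 : N 1 2 = 0 := k hω (by simpa using e1 1 2)
  have h21 : N 2 1 = 0 := k hω (by simpa [mul_comm] using (e1 2 1).symm)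
  ext i j
  fin_cases i <;> fin_cases j <;> simp [h01, h10, h02, h20, h12, h21]

end Cfsg.Agent.H314.G3
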