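import Cfsg.Agent.H314.G3.Abs
import Cfsg.Agent.H314.G3.Heis
import Cfsg.Agent.CpAutU.Fixed
import Cfsg.Agent.LieClassical.HermPerfect
import Cfsg.Agent.ClassicalGeometry.PSUAutMain

/-!
# S2187, TRI-3: automorphisms of `SU_3(q)` (helper314)

* `gj : GU_3(q) → Aut SU_3(q)`, `fj : Aut F → Aut SU_3(q)`;
* `gj_eq_one_iff` : the kernel of `gj` are the scalars;
* `exists_gjfj` : every automorphism is `gj A * fj ρ`;
* `exists_conjU` : automorphisms of order `3` outside the range of `gj` are conjugate to `fj ρ`.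
-/

set_option autoImplicit false
set_option linter.unusedSectionVars false

namespace Cfsg.Agent.H314.G3

open Matrix Cfsg Cfsg.Agent.CpAut.Psl
open Cfsg.Agent.LieClassical.HermBasic Cfsg.Agent.LieClassical.HermSiegel Cfsg.Agent.LieClassical.FieldTransfer
open Cfsg.Agent.ClassicalGeometry.PSUAutCount
open Cfsg.Agent.ClassicalGeometry.UnitAutBasic (pr pr_surjective exists_scalar_of_mem_center pr_eq_pr_iff)
open Cfsg.Agent.Schreier.PSU (f₁ f₂ toAut_eq mapGU conj_field toAut_pr' gm_mapGU)

section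

variable {F : Type*} [Field F] {q n : ℕ}

/-- linear automorphisms -/
def gj : GU n F q →* MulAut (SU n F q) where
  toFun A := guConj A
  map_one' := by
    apply MulEquiv.ext
    intro g
    apply mat_injective
    show gm (1 : GU n F q) * mat g * gm (1 : GU n F q)⁻¹ = mat g
    rw [inv_one, gm_one, Matrix.one_mul, Matrix.mul_one]
  map_mul' A B := by
    apply MulEquiv.ext
    intro g
    apply mat_injective
    show gm (A * B) * mat g * gm (A * B)⁻¹ = gm A * (gm B * mat g * gm B⁻¹) * gm A⁻¹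
    rw [_root_.mul_inv_rev, gm_mul, gm_mul]
    simp only [Matrix.mul_assoc]

theorem mat_gj (A : GU n F q) (g : SU n F q) : mat (gj A g) = gm A * mat g * gm A⁻¹ := rfl

theorem semiConj_eq (A : GU n F q) (ρ : F ≃+* F) : semiConj A ρ = gj A * semiConj 1 ρ := by
  have h1 : (gj (1 : GU n F q)) = (1 : MulAut (SU n F q)) := map_one gj
  apply MulEquiv.ext
  intro g
  show guConj A (suCongr n q ρ g) = guConj A (guConj 1 (suCongr n q ρ g))
  have h2 : guConj (1 : GU n F q) (suCongr n q ρ g) = suCongr n q ρ g := congrArg (fun f => f (suCongr n q ρ g)) h1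
  rw [h2]

theorem semiConj_one_one : semiConj (1 : GU n F q) (1 : F ≃+* F) = 1 := by
  apply MulEquiv.ext
  intro g
  apply ext_act
  intro x
  exact Cfsg.Agent.Schreier.PSU.act_semiConj_field 1 g x

theorem gj_eq_semiConj (A : GU n F q) : (gj A : MulAut (SU n F q)) = semiConj A 1 := by
  rw [semiConj_eq, semiConj_one_one, mul_one]

/-- the induced automorphism of the central quotient -/
def lft : MulAut (SU n F q) →* MulAut (PSU n F q) where
  toFun e := centralQuotientCongr e
  map_one' := by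
    ext x
    obtain ⟨g, rfl⟩ := pr_surjective x
    rfl
  map_mul' a b := by
    ext x
    obtain ⟨g, rfl⟩ := pr_surjective x
    rfl

theorem lft_pr (e : MulAut (SU n F q)) (g : SU n F q) : lft e (pr n F q g) = pr n F q (e g) := rfl

theorem lft_semiConj (A : GU n F q) (ρ : F ≃+* F) : lft (semiConj A ρ) = toAut A ρ := rfl

theorem lft_injective (hp : commutator ↥(SU n F q) = ⊤) :
    Function.Injective (lft : MulAut (SU n F q) →* MulAut (PSU n F q)) := by
  intro a b h
  apply aut_eq_of_center hp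
  intro g
  have h1 := congrArg (fun β => β (pr n F q g)) h
  have h2 : pr n F q (a g) = pr n F q (b g) := h1
  exact QuotientGroup.eq.1 h2

theorem isSc_of_smul {A : GU 3 F q} {c : F} (hc0 : c ≠ 0) (h : gm A = c • 1) : IsSc (A : GL (Fin 3) F) :=
  ⟨Units.mk0 c hc0, Units.ext (by rw [coe_scg]; exact h)⟩

theorem gj_of_isSc {A : GU 3 F q} (h : IsSc (A : GL (Fin 3) F)) : (gj A : MulAut (SU 3 F q)) = 1 := by
  obtain ⟨c, hc⟩ := h
  have h1 : gm A = (c : F) • 1 := by
    rw [gm_def, hc, coe_scg]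
  apply MulEquiv.ext
  intro g
  apply mat_injective
  show gm A * mat g * gm A⁻¹ = mat g
  have h2 : gm A * mat g = mat g * gm A := by
    rw [h1, Matrix.smul_mul, Matrix.mul_smul, Matrix.one_mul, Matrix.mul_one]
  rw [h2, Matrix.mul_assoc, gm_mul_inv, Matrix.mul_one]

end

section fin

variable {F : Type*} [Field F] [Fintype F] {q : ℕ}

theorem gj_eq_one_iff (hF : Fintype.card F = q ^ 2) {A : GU 3 F q} :
    (gj A : MulAut (SU 3 F q)) = 1 ↔ IsSc (A : GL (Fin 3) F) := by
  constructor
  · intro h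
    have h1 : toAut (1 : GU 3 F q) (1 : F ≃+* F) = toAut A 1 := by
      rw [← lft_semiConj, ← lft_semiConj, ← gj_eq_semiConj, ← gj_eq_semiConj, h, map_one]
    obtain ⟨-, c, hc, h2⟩ := eq_of_toAut_eq (n := 3) hF le_rfl h1
    rw [gm_one] at h2
    refine isSc_of_smul ?_ h2
    rintro rfl
    rw [zero_mul] at hc
    exact zero_ne_one hc
  · exact gj_of_isSc

theorem exists_gjfj (hF : Fintype.card F = q ^ 2) (hq : q ≠ 2) (α : MulAut (SU 3 F q)) :
    ∃ (A : GU 3 F q) (ρ : F ≃+* F), α = gj A * semiConj 1 ρ := by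
  have hp : commutator ↥(SU 3 F q) = ⊤ :=
    Cfsg.Agent.LieClassical.HermPerfect.commutator_SU_eq_top hF le_rfl (fun h => hq h.2)
  obtain ⟨A, ρ, h⟩ := Cfsg.Agent.ClassicalGeometry.PSUAutMain.exists_toAut hF le_rfl (fun h => hq h.2) (lft α)
  refine ⟨A, ρ, lft_injective hp ?_⟩
  rw [h, ← semiConj_eq, lft_semiConj]

end fin

end Cfsg.Agent.H314.G3
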