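import Cfsg.Agent.H314.G3.UniAut
import Cfsg.Agent.H314.G3.UniOvg
import Cfsg.Agent.H314.G3.Ovg

/-!
# S2187, TRI-3: field automorphisms of `SU_3(q)` (helper314)
-/

set_option autoImplicit false
set_option linter.unusedSectionVars false

namespace Cfsg.Agent.H314.G3

open Matrix Cfsg Cfsg.Agent.CpAut.Psl Cfsg.Agent.H818.Gen
open Cfsg.Agent.LieClassical.HermBasic Cfsg.Agent.LieClassical.HermSiegel Cfsg.Agent.LieClassical.FieldTransfer
open Cfsg.Agent.ClassicalGeometry.PSUAutCount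
open Cfsg.Agent.ClassicalGeometry.UnitAutBasic (pr pr_surjective)
open Cfsg.Agent.CpAutU.Fixed (mat_semiConj embSU embSU_injective mat_embSU exists_embSU semiConj_embSU)
open scoped commutatorElement

section

variable {F : Type} [Field F] {q : ℕ} {ρ : F ≃+* F}

theorem fix_iff {g : SU 3 F q} [Fintype F] : semiConj 1 ρ g = g ↔ ∀ i j, ρ (mat g i j) = mat g i j := by
  constructor
  · intro h i j
    have h1 := congrFun (congrFun (mat_semiConj (ρ := ρ) g) i) j
    rw [h] at h1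
    exact h1.symm
  · intro h
    apply mat_injective
    rw [mat_semiConj]
    ext i j
    exact h i j

theorem map_pm {x : F} (h : x = 0 ∨ x = 1 ∨ x = -1) : ρ x = x := by
  rcases h with rfl | rfl | rfl
  · exact map_zero ρ
  · exact map_one ρ
  · rw [map_neg, map_one]

/-- a unitary matrix centralising `SU_3(F₀)` is scalar -/
theorem isSc_of_fixU [Fintype F] (h2 : (2 : F) ≠ 0) (hq : Odd q) {A : GU 3 F q}
    (h : ∀ g : SU 3 F q, semiConj 1 ρ g = g → gj A g = g) : IsSc (A : GL (Fin 3) F) := by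
  have hcomm : ∀ g : SU 3 F q, (∀ i j, ρ (mat g i j) = mat g i j) → gm A * mat g = mat g * gm A := by
    intro g hg
    have h1 := congrArg mat (h g (fix_iff.2 hg))
    rw [mat_gj] at h1
    have h3 : (gm A * mat g * gm A⁻¹) * gm A = mat g * gm A := by rw [h1]
    rwa [Matrix.mul_assoc, gm_inv_mul, Matrix.mul_one] at h3
  have hm1 : (-1 : F) ^ (q + 1) = 1 := (hq.add_one).neg_one_pow
  have hne : (1 : F) - (-1) ≠ 0 := by
    intro h0
    apply h2
    linear_combination h0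
  have hdiag : ∀ a : Fin 3 → F, (∀ i, a i = 1 ∨ a i = -1) → ∏ i, a i = 1 → gm A * diagonal a = diagonal a * gm A := by
    intro a ha hd
    refine hcomm (Cfsg.Agent.LieClassical.SUBasic.suDiag q a hd fun i => ?_) fun i j => map_pm ?_
    · rcases ha i with h | h
      · rw [h, one_pow]
      · rw [h, hm1]
    · show diagonal a i j = 0 ∨ diagonal a i j = 1 ∨ diagonal a i j = -1
      rw [diagonal_apply]
      split_ifs with hij
      · exact Or.inr (ha i)
      · exact Or.inl rfl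
  have e1 := hdiag ![-1, -1, 1] (by intro i; fin_cases i <;> simp) (by simp [Fin.prod_univ_three])
  have e2 := hdiag ![1, -1, -1] (by intro i; fin_cases i <;> simp) (by simp [Fin.prod_univ_three])
  have k : ∀ (a : Fin 3 → F), gm A * diagonal a = diagonal a * gm A → ∀ i j, a i - a j ≠ 0 → gm A i j = 0 := by
    intro a ha i j hij
    have h3 := congrFun (congrFun ha i) j
    rw [Matrix.mul_diagonal, Matrix.diagonal_mul] at h3
    have h4 : (a i - a j) * gm A i j = 0 := by linear_combination -h3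
    exact (mul_eq_zero.1 h4).resolve_left hij
  have hne' : (-1 : F) - 1 ≠ 0 := by
    intro h0
    apply h2
    linear_combination -h0
  have z : ∀ i j, i ≠ j → gm A i j = 0 := by
    intro i j hij
    fin_cases i <;> fin_cases j
    · exact absurd rfl hij
    · exact k _ e2 0 1 (by simpa using hne)
    · exact k _ e2 0 2 (by simpa using hne)
    · exact k _ e2 1 0 (by simpa using hne')
    · exact absurd rfl hij
    · exact k _ e1 1 2 (by simpa using hne')
    · exact k _ e1 2 0 (by simpa using hne)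
    · exact k _ e1 2 1 (by simpa using hne)
    · exact absurd rfl hij
  -- the cyclic permutation
  have e3 := hcomm (Cfsg.Agent.LieClassical.SUBasic.suPerm q (finRotate 3) (by decide)) fun i j => map_pm (by
    show (finRotate 3).permMatrix F i j = 0 ∨ (finRotate 3).permMatrix F i j = 1 ∨ (finRotate 3).permMatrix F i j = -1
    rw [Equiv.Perm.permMatrix, PEquiv.toMatrix_apply]
    split_ifs
    · exact Or.inr (Or.inl rfl)
    · exact Or.inl rfl)
  have e4 : ∀ i : Fin 3, gm A i i = gm A (finRotate 3 i) (finRotate 3 i) := by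
    intro i
    have h' : (gm A * (finRotate 3).permMatrix F) i (finRotate 3 i) = ((finRotate 3).permMatrix F * gm A) i (finRotate 3 i) :=
      congrFun (congrFun e3 i) (finRotate 3 i)
    rw [Equiv.Perm.permMatrix, PEquiv.toMatrix_toPEquiv_mul, PEquiv.mul_toMatrix_toPEquiv] at h'
    simp only [Matrix.submatrix_apply, id, Equiv.symm_apply_apply] at h'
    exact h'
  have h0 : gm A 0 0 = gm A 1 1 := e4 0
  have h1 : gm A 1 1 = gm A 2 2 := e4 1
  have hA : gm A = gm A 0 0 • 1 := by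
    ext i j
    rw [Matrix.smul_apply, Matrix.one_apply]
    split_ifs with hij
    · subst hij
      fin_cases i
      · simp
      · simp [h0]
      · simp [h0, h1]
    · rw [z i j hij, smul_zero]
  refine isSc_of_smul ?_ hA
  intro h00
  rw [h00, zero_smul] at hA
  have := gm_mul_inv A
  rw [hA, Matrix.zero_mul] at this
  exact zero_ne_one (congrFun (congrFun this 0) 0)

end

section fin

variable {F : Type} [Field F] [Fintype F] {q s : ℕ} {ρ : F ≃+* F}

theorem center_of_fixU (h2 : (2 : F) ≠ 0) (hq : Odd q) {z : SU 3 F q}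
    (h : ∀ l ∈ fx (semiConj (1 : GU 3 F q) ρ), z * l = l * z) : z ∈ Subgroup.center (SU 3 F q) := by
  obtain ⟨A, hA⟩ : ∃ A : GU 3 F q, gm A = mat z :=
    ⟨⟨Matrix.SpecialLinearGroup.toGL z.1, fun u v => z.2 u v⟩, rfl⟩
  have h1 : IsSc (A : GL (Fin 3) F) := by
    refine isSc_of_fixU (ρ := ρ) h2 hq fun g hg => ?_
    apply mat_injective
    have h3 : mat z * mat g = mat g * mat z := by rw [← mat_mul, ← mat_mul, h g hg]
    rw [mat_gj, hA, h3, ← hA, Matrix.mul_assoc, gm_mul_inv, Matrix.mul_one]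
  obtain ⟨c, hc⟩ := h1
  rw [Subgroup.mem_center_iff]
  intro g
  apply mat_injective
  have h4 : mat z = (c : F) • 1 := by rw [← hA, gm_def, hc, coe_scg]
  rw [mat_mul, mat_mul, h4, Matrix.mul_smul, Matrix.smul_mul, Matrix.mul_one, Matrix.one_mul]

/-- the isomorphism with `SU_3(F₀)` -/
noncomputable def eqFxU (hF : Fintype.card F = q ^ 2) (hpow : ∀ a ∈ fixf ρ, a ^ q = a ^ s) :
    SU 3 ↥(fixf ρ) s ≃* ↥(fx (semiConj (1 : GU 3 F q) ρ)) :=
  (MonoidHom.ofInjective (embSU_injective (n := 3) hF hpow)).trans (MulEquiv.subgroupCongr (by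
    ext g
    constructor
    · rintro ⟨h, rfl⟩
      exact semiConj_embSU hF hpow h
    · intro hg
      obtain ⟨h, hh⟩ := exists_embSU hF hpow hg
      exact ⟨h, hh⟩))

/-- `SU_3(q)` in `GL_3` -/
def toG : SU 3 F q →* GL (Fin 3) F := Matrix.SpecialLinearGroup.toGL.comp (SU 3 F q).subtype

theorem coe_toG (g : SU 3 F q) : ((toG g : GL (Fin 3) F) : Matrix (Fin 3) (Fin 3) F) = mat g := rfl

theorem toG_injective : Function.Injective (toG : SU 3 F q →* GL (Fin 3) F) := by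
  intro a b h
  apply mat_injective
  exact congrArg Units.val h

theorem toG_mem (g : SU 3 F q) : (toG g : GL (Fin 3) F) ∈ Cfsg.Agent.H918.SUg 3 F q :=
  Cfsg.Agent.H918.mem_SUg.2 ⟨fun u v => g.2 u v, g.1.2⟩

theorem exists_toG {g : GL (Fin 3) F} (hg : g ∈ Cfsg.Agent.H918.SUg 3 F q) : ∃ g' : SU 3 F q, toG g' = g := by
  obtain ⟨h1, h2⟩ := Cfsg.Agent.H918.mem_SUg.1 hg
  exact ⟨⟨⟨(g : Matrix (Fin 3) (Fin 3) F), h2⟩, fun u v => h1 u v⟩, Units.ext rfl⟩

theorem toG_gj (A : GU 3 F q) (g : SU 3 F q) : toG (gj A g) = (A : GL (Fin 3) F) * toG g * (A : GL (Fin 3) F)⁻¹ := by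
  apply Units.ext
  rw [coe_toG, mat_gj, Units.val_mul, Units.val_mul, coe_toG]
  rfl

theorem ovg_fldU (hF : Fintype.card F = q ^ 2) (h2 : (2 : F) ≠ 0) (hq : Odd q) (hρ : orderOf ρ = 3)
    (hs : Nat.card ↥(fixf ρ) = s ^ 2) (hqs : q = s ^ 3) (hs3 : 3 ≤ s)
    (hperf : commutator ↥(fx (semiConj (1 : GU 3 F q) ρ)) = ⊤) {M : Subgroup (SU 3 F q)}
    (hM : fx (semiConj (1 : GU 3 F q) ρ) ≤ M) :
    M = ⊤ ∨ ∀ g ∈ M, g⁻¹ * semiConj 1 ρ g ∈ Subgroup.center (SU 3 F q) := by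
  by_cases hne : M = ⊤
  · exact Or.inl hne
  right
  have hft : Fintype ↥(fixf ρ) := Fintype.ofFinite _
  have hpow : ∀ a ∈ fixf ρ, a ^ q = a ^ s := fun a ha =>
    Cfsg.Agent.CpAutU.Fld.pow_q (ℓ := 3) (by decide) hs hqs ha
  have hS : Cfsg.Agent.H930.GUSub.Setup (fixf ρ) q s :=
    { hF := hF
      hF₀ := by rw [← Nat.card_eq_fintype_card, hs]
      pow_eq := fun x => by rw [hpow _ x.2]; rfl }
  have hlt : M.map toG < Cfsg.Agent.H918.SUg 3 F q := by
    refine lt_of_le_of_ne ?_ fun h => hne ?_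
    · rintro _ ⟨g, -, rfl⟩
      exact toG_mem g
    · rw [eq_top_iff]
      intro g _
      have h1 : toG g ∈ M.map toG := by
        rw [h]
        exact toG_mem g
      obtain ⟨g', hg', hgg⟩ := h1
      rwa [← toG_injective hgg]
  obtain ⟨M', hMM', hmax⟩ := exists_maximalIn hlt
  have hcard : Fintype.card F = Nat.card ↥(fixf ρ) ^ 3 := Cfsg.Agent.CpAutU.Fld.card_fixf hρ
  obtain ⟨P, hPU, hP⟩ := row_five' hF (F₀ := fixf ρ) (q₀ := s) Nat.prime_three (by decide) hcard hs3 hS hmax (fun g hg => by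
    apply hMM'
    obtain ⟨g', hg'⟩ := exists_toG (Cfsg.Agent.H907.Mx.ext_mem hS hg)
    refine ⟨g', hM ?_, hg'⟩
    show semiConj 1 ρ g' = g'
    rw [fix_iff]
    intro i j
    have h5 : mat g' = (g : Matrix (Fin 3) (Fin 3) ↥(fixf ρ)).map (fixf ρ).subtype := by
      rw [← coe_toG, hg']
      rfl
    rw [h5]
    exact ((g : Matrix (Fin 3) (Fin 3) ↥(fixf ρ)) i j).2)
  obtain ⟨P', hP'⟩ : ∃ P' : GU 3 F q, (P' : GL (Fin 3) F) = P := ⟨⟨P, hPU⟩, rfl⟩
  refine ovg_of hperf (fun z hz => center_of_fixU h2 hq hz) hM (gj P') fun g hg k hk => ?_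
  have hsub : ∀ g ∈ M, ∃ (a : GL (Fin 3) ↥(fixf ρ)) (c : Fˣ), toG g =
      scg c * (P * Matrix.GeneralLinearGroup.map ((fixf ρ).subtype : ↥(fixf ρ) →+* F) a * P⁻¹) := by
    intro g hg
    have h1 : toG g ∈ M' := hMM' ⟨g, hg, rfl⟩
    rw [hP] at h1
    obtain ⟨y, hy, hyg⟩ := h1.1
    obtain ⟨a, c, hc⟩ := Cfsg.Agent.H895.SLT.mem_subfield hy
    refine ⟨a, c, ?_⟩
    have h3 : y = scg c * Matrix.GeneralLinearGroup.map ((fixf ρ).subtype : ↥(fixf ρ) →+* F) a := by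
      apply Units.ext
      rw [hc, coe_scg_mul, one_mul, inv_one, mul_one]
    rw [← hyg, h3]
    show P * (scg c * Matrix.GeneralLinearGroup.map ((fixf ρ).subtype : ↥(fixf ρ) →+* F) a) * P⁻¹ = _
    rw [← mul_assoc, ← scg_comm c P]
    simp only [mul_assoc]
  obtain ⟨a, c, ha⟩ := hsub g hg
  obtain ⟨b, d, hb⟩ := hsub k hk
  obtain ⟨A, hA⟩ : ∃ A, A = Matrix.GeneralLinearGroup.map ((fixf ρ).subtype : ↥(fixf ρ) →+* F) a := ⟨_, rfl⟩
  obtain ⟨B, hB⟩ : ∃ B, B = Matrix.GeneralLinearGroup.map ((fixf ρ).subtype : ↥(fixf ρ) →+* F) b := ⟨_, rfl⟩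
  rw [← hA] at ha
  rw [← hB] at hb
  -- the commutator
  have h1 : (toG ⁅g, k⁆ : GL (Fin 3) F) = P * ⁅A, B⁆ * P⁻¹ := by
    rw [map_commutatorElement, ha, hb, comm_scg, commutatorElement_def, commutatorElement_def]
    group
  refine ⟨(gj P')⁻¹ ⁅g, k⁆, ?_, MulAut.apply_inv_self _ (gj P') ⁅g, k⁆⟩
  have h3 : toG ((gj P')⁻¹ ⁅g, k⁆) = ⁅A, B⁆ := by
    rw [← map_inv, toG_gj, h1]
    show (P' : GL (Fin 3) F)⁻¹ * (P * ⁅A, B⁆ * P⁻¹) * (P' : GL (Fin 3) F)⁻¹⁻¹ = _
    rw [hP']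
    group
  show semiConj 1 ρ ((gj P')⁻¹ ⁅g, k⁆) = (gj P')⁻¹ ⁅g, k⁆
  rw [fix_iff]
  intro i j
  rw [← coe_toG, h3, hA, hB, ← map_commutatorElement]
  exact ((⁅a, b⁆ : GL (Fin 3) ↥(fixf ρ)) i j).2

/-- **field automorphisms of `SU_3(q)`** -/
theorem dat_fldU (hF : Fintype.card F = q ^ 2) (h2 : (2 : F) ≠ 0) (hq : Odd q) (hρ : orderOf ρ = 3)
    (hs : Nat.card ↥(fixf ρ) = s ^ 2) (hqs : q = s ^ 3) (hs3 : 3 ≤ s)
    (hgen : Gen 3 ↥(SU 3 ↥(fixf ρ) s)) :
    DatZ 3 (gj : GU 3 F q →* MulAut (SU 3 F q)).range (semiConj 1 ρ) := by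
  have hft : Fintype ↥(fixf ρ) := Fintype.ofFinite _
  have hpow : ∀ a ∈ fixf ρ, a ^ q = a ^ s := fun a ha =>
    Cfsg.Agent.CpAutU.Fld.pow_q (ℓ := 3) (by decide) hs hqs ha
  have hF₀ : Fintype.card ↥(fixf ρ) = s ^ 2 := by rw [← Nat.card_eq_fintype_card, hs]
  have hp : commutator ↥(fx (semiConj (1 : GU 3 F q) ρ)) = ⊤ := perf_map (eqFxU hF hpow)
    (Cfsg.Agent.LieClassical.HermPerfect.commutator_SU_eq_top hF₀ le_rfl (fun h => by omega))
  refine ⟨hgen.congr (eqFxU hF hpow), hp, fun M hM => ovg_fldU hF h2 hq hρ hs hqs hs3 hp hM, fun x hx h => ?_⟩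
  obtain ⟨A, rfl⟩ := hx
  exact gj_of_isSc (isSc_of_fixU (ρ := ρ) h2 hq h)

/-- automorphisms of order three outside the linear group are conjugate to field automorphisms -/
theorem exists_conjU (hF : Fintype.card F = q ^ 2) (hq2 : q ≠ 2) {A : GU 3 F q}
    (h : (gj A * semiConj 1 ρ : MulAut (SU 3 F q)) ^ 3 = 1) (h1 : ρ ≠ 1) :
    orderOf ρ = 3 ∧ ∃ B : GU 3 F q, (gj A * semiConj 1 ρ : MulAut (SU 3 F q)) = gj B * semiConj 1 ρ * (gj B)⁻¹ := by
  have hp : commutator ↥(SU 3 F q) = ⊤ :=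
    Cfsg.Agent.LieClassical.HermPerfect.commutator_SU_eq_top hF le_rfl (fun h => hq2 h.2)
  have h3 : toAut A ρ ^ 3 = 1 := by
    rw [← lft_semiConj, semiConj_eq, ← map_pow, h, map_one]
  obtain ⟨h4, M, hM⟩ := Cfsg.Agent.CpAutU.Desc.exists_conj (n := 3) hF le_rfl Nat.prime_three (by norm_num) h3 h1
  refine ⟨h4, M, lft_injective hp ?_⟩
  rw [← semiConj_eq, lft_semiConj, hM, map_mul, map_mul, map_inv, gj_eq_semiConj, lft_semiConj, lft_semiConj]

end fin

end Cfsg.Agent.H314.G3
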